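import Cfsg.Agent.TIThree.Embed
import Cfsg.Agent.TIThree.Cyclic

/-!
# Automizers acting freely on the nonidentity elements
-/

set_option autoImplicit false

namespace CfsgLib.TIThree

open Subgroup

universe u

variable {G : Type u} [Group G] [Finite G]

/-- A Sylow 3-subgroup of order nine which is the centraliser of each nonidentity element and
whose normalizer has two classes on it: either it has a normal complement or the group has order
360 and is simple. -/
theorem normalizer_eq_top_or (P : Sylow 3 G) (hcard : Nat.card (P : Subgroup G) = 9)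
    (hexp : ∀ a ∈ (P : Subgroup G), a ^ 3 = 1)
    (hcomm : ∀ a ∈ (P : Subgroup G), ∀ b ∈ (P : Subgroup G), a * b = b * a)
    (hcent : ∀ s ∈ (P : Subgroup G), s ≠ 1 →
      Subgroup.centralizer ({s} : Set G) = (P : Subgroup G))
    (a0 b0 : G) (ha0 : a0 ∈ (P : Subgroup G)) (hb0 : b0 ∈ (P : Subgroup G)) (ha01 : a0 ≠ 1)
    (hb01 : b0 ≠ 1) (hab : ∀ g : G, g * a0 * g⁻¹ ≠ b0) :
    Subgroup.normalizer ((P : Subgroup G) : Set G) = ⊤ ∨
      (Nat.card G = 360 ∧ IsSimpleGroup G) := by
  classical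
  haveI : Fact (Nat.Prime 3) := ⟨Nat.prime_three⟩
  set N := Subgroup.normalizer ((P : Subgroup G) : Set G) with hN
  have hPN : (P : Subgroup G) ≤ N := Subgroup.le_normalizer
  have hC : Subgroup.centralizer ((P : Subgroup G) : Set G) = (P : Subgroup G) := by
    refine le_antisymm ?_ fun x hx => Subgroup.mem_centralizer_iff.mpr fun y hy => hcomm y hy x hx
    refine le_trans (Subgroup.centralizer_le (Set.singleton_subset_iff.mpr ha0)) ?_
    exact (hcent a0 ha0 ha01).le
  have hcentN : ∀ t ∈ (P : Subgroup G), t ≠ 1 → Subgroup.centralizer ({t} : Set G) ≤ N :=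
    fun t ht ht1 => (hcent t ht ht1).le.trans hPN
  have hidx : ¬ 3 ∣ (P : Subgroup G).index := P.not_dvd_index
  have hconj : ∀ n ∈ N, ∀ t ∈ (P : Subgroup G), n * t * n⁻¹ ∈ (P : Subgroup G) := fun n hn t ht =>
    (Subgroup.mem_normalizer_iff.mp hn t).mp ht
  -- freeness
  have hfree : ∀ n ∈ N, n ∉ (P : Subgroup G) → ∀ t ∈ (P : Subgroup G), n * t * n⁻¹ = t → t = 1 := by
    intro n _ hn t ht h
    by_contra ht1
    refine hn ((hcent t ht ht1).le (Subgroup.mem_centralizer_singleton_iff.mpr ?_))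
    exact mul_inv_eq_iff_eq_mul.mp h
  have hinv : ∀ n ∈ N, n ∉ (P : Subgroup G) → n * n ∈ (P : Subgroup G) →
      ∀ t ∈ (P : Subgroup G), n * t * n⁻¹ = t⁻¹ := by
    intro n hn hnP hn2 t ht
    have h2 : n * n * t * (n * n)⁻¹ = t := by rw [hcomm _ hn2 t ht]; group
    have := hfree n hn hnP _ (mul_mem ht (hconj n hn t ht)) (by
      calc n * (t * (n * t * n⁻¹)) * n⁻¹ = n * t * n⁻¹ * (n * n * t * (n * n)⁻¹) := by group
      _ = n * t * n⁻¹ * t := by rw [h2]
      _ = t * (n * t * n⁻¹) := hcomm _ (hconj n hn t ht) t ht)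
    exact eq_inv_of_mul_eq_one_right this
  -- the quotient
  set Pn := (P : Subgroup G).subgroupOf N with hPn
  haveI : Pn.Normal := Subgroup.normal_in_normalizer
  set m := Pn.index with hm
  have hm3 : ¬ 3 ∣ m := fun h => hidx (h.trans (Subgroup.relIndex_dvd_index_of_le hPN))
  have hcardN : Nat.card N = 9 * m := by
    rw [← Pn.card_mul_index, Nat.card_congr (Subgroup.subgroupOfEquivOfLe hPN).toEquiv, hcard]
  have hm0 : 0 < m := Nat.pos_of_ne_zero Subgroup.index_ne_zero_of_finite
  have hm4 : m ≤ 4 := by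
    have hinj : Function.Injective (fun x : (N ⧸ Pn) ⊕ (N ⧸ Pn) =>
        (match x with
          | Sum.inl q => (⟨(q.out : G) * a0 * (q.out : G)⁻¹, hconj _ q.out.2 _ ha0, by
              simpa using ha01⟩ : {t : G // t ∈ (P : Subgroup G) ∧ t ≠ 1})
          | Sum.inr q => (⟨(q.out : G) * b0 * (q.out : G)⁻¹, hconj _ q.out.2 _ hb0, by
              simpa using hb01⟩ : {t : G // t ∈ (P : Subgroup G) ∧ t ≠ 1}))) := by
      have key : ∀ (c : G), c ∈ (P : Subgroup G) → c ≠ 1 → ∀ q q' : N ⧸ Pn,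
          (q.out : G) * c * (q.out : G)⁻¹ = (q'.out : G) * c * (q'.out : G)⁻¹ → q = q' := by
        intro c hc hc1 q q' h
        rw [← QuotientGroup.out_eq' q, ← QuotientGroup.out_eq' q', QuotientGroup.eq]
        refine Subgroup.mem_subgroupOf.mpr ?_
        refine (hcent c hc hc1).le (Subgroup.mem_centralizer_singleton_iff.mpr ?_)
        calc ((q.out⁻¹ * q'.out : N) : G) * c
            = (q.out : G)⁻¹ * ((q'.out : G) * c * (q'.out : G)⁻¹) * (q'.out : G) := by
              simp only [Subgroup.coe_mul, Subgroup.coe_inv]; group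
        _ = (q.out : G)⁻¹ * ((q.out : G) * c * (q.out : G)⁻¹) * (q'.out : G) := by rw [h]
        _ = c * ((q.out⁻¹ * q'.out : N) : G) := by
              simp only [Subgroup.coe_mul, Subgroup.coe_inv]; group
      have key2 : ∀ q q' : N ⧸ Pn,
          (q.out : G) * a0 * (q.out : G)⁻¹ ≠ (q'.out : G) * b0 * (q'.out : G)⁻¹ := by
        intro q q' h
        refine hab ((q'.out : G)⁻¹ * (q.out : G)) ?_
        calc (q'.out : G)⁻¹ * (q.out : G) * a0 * ((q'.out : G)⁻¹ * (q.out : G))⁻¹
            = (q'.out : G)⁻¹ * ((q.out : G) * a0 * (q.out : G)⁻¹) * (q'.out : G) := by group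
        _ = b0 := by rw [h]; group
      rintro (q | q) (q' | q') h <;> have h' := congrArg Subtype.val h
      · exact congrArg Sum.inl (key a0 ha0 ha01 q q' h')
      · exact absurd h' (key2 q q')
      · exact absurd h'.symm (key2 q' q)
      · exact congrArg Sum.inr (key b0 hb0 hb01 q q' h')
    have h8 : Nat.card {t : G // t ∈ (P : Subgroup G) ∧ t ≠ 1} = 8 := by
      have h1 : Nat.card {t : (P : Subgroup G) // t ≠ 1} = 8 := by
        haveI := Fintype.ofFinite (P : Subgroup G)
        rw [Nat.card_eq_fintype_card, Fintype.card_subtype_compl, Fintype.card_subtype_eq,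
          ← Nat.card_eq_fintype_card, hcard]
      rw [← h1]
      exact Nat.card_congr
        { toFun := fun t => ⟨⟨t.1, t.2.1⟩, fun e => t.2.2 (congrArg Subtype.val e)⟩
          invFun := fun t => ⟨t.1.1, t.1.2, fun e => t.2 (Subtype.ext e)⟩
          left_inv := fun t => rfl
          right_inv := fun t => rfl }
    have := Nat.card_le_card_of_injective _ hinj
    rw [Nat.card_sum, ← Subgroup.index_eq_card, ← hm, h8] at this
    omega
  by_cases hC4 : ∃ c ∈ N, c * c ∉ (P : Subgroup G)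
  · -- cyclic of order four
    obtain ⟨c, hcN, hc2⟩ := hC4
    have hcP : c ∉ (P : Subgroup G) := fun h => hc2 (mul_mem h h)
    set cq : N ⧸ Pn := ((⟨c, hcN⟩ : N) : N ⧸ Pn) with hcq
    have hq2 : cq ^ 2 ≠ 1 := by
      rw [hcq, ← QuotientGroup.mk_pow, ne_eq, QuotientGroup.eq_one_iff, hPn,
        Subgroup.mem_subgroupOf, pow_two]
      exact hc2
    have hord : orderOf cq ∣ m := by rw [hm, Subgroup.index_eq_card]; exact orderOf_dvd_natCard cq
    have hord4 : orderOf cq = 4 ∧ m = 4 := by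
      have h1 : ¬ orderOf cq ∣ 2 := fun h => hq2 (orderOf_dvd_iff_pow_eq_one.mp h)
      have h2 := Nat.le_of_dvd hm0 hord
      rcases (show m = 1 ∨ m = 2 ∨ m = 4 by omega) with e | e | e
      · exact absurd (dvd_trans (e ▸ hord) (one_dvd 2)) h1
      · exact absurd (e ▸ hord) h1
      · refine ⟨?_, e⟩
        obtain ⟨i, hi, hi'⟩ := (Nat.dvd_prime_pow Nat.prime_two (i := orderOf cq) (m := 2)).mp
          (by rw [e] at hord; exact hord)
        interval_cases i
        · exact absurd (by rw [hi']; norm_num) h1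
        · exact absurd (by rw [hi']; norm_num) h1
        · exact hi'
    have hc4 : (c * c) * (c * c) ∈ (P : Subgroup G) := by
      have : cq ^ 4 = 1 := hord4.1 ▸ pow_orderOf_eq_one cq
      rw [hcq, ← QuotientGroup.mk_pow, QuotientGroup.eq_one_iff, hPn,
        Subgroup.mem_subgroupOf] at this
      simpa [pow_succ, mul_assoc] using this
    have hcc : ∀ t ∈ (P : Subgroup G), c * c * t * (c * c)⁻¹ = t⁻¹ :=
      hinv (c * c) (mul_mem hcN hcN) hc2 hc4
    have hb : c * a0 * c⁻¹ ∉ Subgroup.zpowers a0 := by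
      intro h
      have hne : a0⁻¹ ≠ a0 := by
        intro e
        have h3 := hexp a0 ha0
        rw [pow_succ, pow_two, show a0 * a0 = 1 by rw [mul_eq_one_iff_eq_inv]; exact e.symm,
          one_mul] at h3
        exact ha01 h3
      obtain ⟨i, hi⟩ := Subgroup.mem_zpowers_iff.mp h
      refine hne ?_
      have e2 : c * c * a0 * (c * c)⁻¹ = a0 ^ (i * i) := by
        calc c * c * a0 * (c * c)⁻¹ = c * (c * a0 * c⁻¹) * c⁻¹ := by group
        _ = c * a0 ^ i * c⁻¹ := by rw [hi]
        _ = (c * a0 * c⁻¹) ^ i := (conj_zpow).symm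
        _ = a0 ^ (i * i) := by rw [← hi, zpow_mul]
      rw [hcc a0 ha0] at e2
      rw [e2]
      have hio : orderOf a0 = 3 := orderOf_eq_prime (hexp a0 ha0) ha01
      have h1 : (i * i) % 3 = 1 := by
        rcases (show i % 3 = 0 ∨ i % 3 = 1 ∨ i % 3 = 2 by omega) with e | e | e
        · exfalso
          rw [← zpow_mod_orderOf, hio] at hi
          push_cast at hi
          rw [e, zpow_zero] at hi
          exact ha01 (conj_eq_one_iff.mp hi.symm)
        · rw [Int.mul_emod, e]; rfl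
        · rw [Int.mul_emod, e]; rfl
      rw [← zpow_mod_orderOf, hio]
      push_cast
      rw [h1, zpow_one]
    let B : Basis9 (P : Subgroup G) :=
      { a := a0, b := c * a0 * c⁻¹, ha := ha0, hb := hconj c hcN _ ha0, ha1 := ha01, hb1 := hb,
        card := hcard, cube := hexp, comm := hcomm }
    have hca : c * B.a * c⁻¹ = B.b := rfl
    have hcb : c * B.b * c⁻¹ = B.a⁻¹ := by
      show c * (c * a0 * c⁻¹) * c⁻¹ = a0⁻¹
      rw [← hcc a0 ha0]; group
    have hgen : ∀ n ∈ N, ∃ i : ℕ, i < 4 ∧ (c ^ i)⁻¹ * n ∈ (P : Subgroup G) := by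
      intro n hn
      have hz : (⊤ : Subgroup (N ⧸ Pn)) = Subgroup.zpowers cq := by
        refine (Subgroup.eq_top_of_card_eq _ ?_).symm
        rw [Nat.card_zpowers, hord4.1, ← Subgroup.index_eq_card, ← hm, hord4.2]
      have : ((⟨n, hn⟩ : N) : N ⧸ Pn) ∈ Subgroup.zpowers cq := hz ▸ Subgroup.mem_top _
      rw [mem_zpowers_iff_mem_range_orderOf, Finset.mem_image] at this
      obtain ⟨i, hi, e⟩ := this
      rw [Finset.mem_range, hord4.1] at hi
      refine ⟨i, hi, ?_⟩
      rw [hcq, ← QuotientGroup.mk_pow, QuotientGroup.eq, hPn, Subgroup.mem_subgroupOf] at e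
      simpa using e
    have hmon : B.Monomial N := by
      intro n hn
      obtain ⟨i, hi, ht⟩ := hgen n hn
      have hred : ∀ x ∈ (P : Subgroup G), n * x * n⁻¹ = c ^ i * x * (c ^ i)⁻¹ := by
        intro x hx
        calc n * x * n⁻¹ = c ^ i * (((c ^ i)⁻¹ * n) * x * ((c ^ i)⁻¹ * n)⁻¹) * (c ^ i)⁻¹ := by
              group
        _ = c ^ i * x * (c ^ i)⁻¹ := by
              rw [hcomm _ ht x hx, mul_inv_cancel_right]
      rw [hred _ B.ha, hred _ B.hb]
      have hca' : c * B.a⁻¹ * c⁻¹ = B.b⁻¹ := by rw [← hca, conj_inv]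
      have hcb' : c * B.b⁻¹ * c⁻¹ = B.a := by rw [← conj_inv, hcb, inv_inv]
      have step : ∀ (j : ℕ) (x : G), c ^ (j + 1) * x * (c ^ (j + 1))⁻¹ =
          c * (c ^ j * x * (c ^ j)⁻¹) * c⁻¹ := fun j x => by rw [pow_succ']; group
      interval_cases i
      · exact ⟨⟨(1, 0), by decide, by simp [B.pt_a]⟩, ⟨(0, 1), by decide, by simp [B.pt_b]⟩⟩
      · exact ⟨⟨(0, 1), by decide, by rw [pow_one, hca, B.pt_b]⟩,
          ⟨(2, 0), by decide, by rw [pow_one, hcb, B.pt_a']⟩⟩
      · exact ⟨⟨(2, 0), by decide, by rw [step 1, pow_one, hca, hcb, B.pt_a']⟩,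
          ⟨(0, 2), by decide, by rw [step 1, pow_one, hcb, hca', B.pt_b']⟩⟩
      · exact ⟨⟨(0, 2), by decide, by rw [step 2, step 1, pow_one, hca, hcb, hca', B.pt_b']⟩,
          ⟨(1, 0), by decide, by rw [step 2, step 1, pow_one, hcb, hca', hcb', B.pt_a]⟩⟩
    obtain ⟨f, hf, htr, hlin⟩ := exists_model (P : Subgroup G) B hidx hC hmon
    have hfc : f ⟨c, hcN⟩ ∈ El.cyc := by
      refine mem_cyc_of_lin _ (B.pt_injective ?_) (B.pt_injective ?_)
      · rw [hlin, B.pt_a, B.pt_b]
      · rw [hlin, B.pt_b, B.pt_a']; exact hcb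
    have hK : ∀ n, f n ∈ El.cyc := by
      rintro ⟨n, hn⟩
      obtain ⟨i, -, ht⟩ := hgen n hn
      have e : (⟨n, hn⟩ : N) = ⟨c, hcN⟩ ^ i * ⟨(c ^ i)⁻¹ * n, hPN ht⟩ := Subtype.ext (by simp)
      rw [e, map_mul, map_pow]
      exact mul_mem (pow_mem hfc i) (trans_le_cyc _ ((htr _).mpr ht))
    obtain ⟨S, hS⟩ := exists_setting P B hcentN f hf htr El.cyc hK (by
      rw [Nat.card_eq_fintype_card, Cyclic.card_cyc, hcardN, hord4.2])
    rcases Cyclic.range_eq_top_or S with h | h
    · left; exact hS.symm.trans h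
    · exact Or.inr h
  -- everything squares into the translations
  push Not at hC4
  left
  obtain ⟨b, hbP, hb⟩ : ∃ b ∈ (P : Subgroup G), b ∉ Subgroup.zpowers a0 := by
    by_contra h
    push Not at h
    have := Subgroup.card_le_of_le (show (P : Subgroup G) ≤ Subgroup.zpowers a0 from h)
    rw [hcard, Nat.card_zpowers, orderOf_eq_prime (hexp a0 ha0) ha01] at this
    omega
  let B : Basis9 (P : Subgroup G) :=
    { a := a0, b := b, ha := ha0, hb := hbP, ha1 := ha01, hb1 := hb,
      card := hcard, cube := hexp, comm := hcomm }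
  have hact : ∀ n ∈ N, ∀ t ∈ (P : Subgroup G),
      (n ∈ (P : Subgroup G) → n * t * n⁻¹ = t) ∧ (n ∉ (P : Subgroup G) → n * t * n⁻¹ = t⁻¹) :=
    fun n hn t ht => ⟨fun h => by rw [hcomm n h t ht, mul_inv_cancel_right],
      fun h => hinv n hn h (hC4 n hn) t ht⟩
  have hmon : B.Monomial N := by
    intro n hn
    by_cases h : n ∈ (P : Subgroup G)
    · exact ⟨⟨(1, 0), by decide, by rw [(hact n hn _ B.ha).1 h, B.pt_a]⟩,
        ⟨(0, 1), by decide, by rw [(hact n hn _ B.hb).1 h, B.pt_b]⟩⟩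
    · exact ⟨⟨(2, 0), by decide, by rw [(hact n hn _ B.ha).2 h, B.pt_a']⟩,
        ⟨(0, 2), by decide, by rw [(hact n hn _ B.hb).2 h, B.pt_b']⟩⟩
  obtain ⟨f, hf, htr, hlin⟩ := exists_model (P : Subgroup G) B hidx hC hmon
  by_cases hall : ∀ n ∈ N, n ∈ (P : Subgroup G)
  · obtain ⟨S, hS⟩ := exists_setting P B hcentN f hf htr El.trans
      (fun n => (htr n).mpr (hall n n.2)) (by
        rw [Nat.card_eq_fintype_card, hcardN]
        have h9 : Fintype.card El.trans = 9 := by decide +kernel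
        omega)
    refine hS.symm.trans ?_
    exact S.range_eq_top_of_trans
      (fun x => Subtype.ext ((El.isTrans_iff_cube x.1).mp x.2))
      (by rw [Nat.card_eq_fintype_card]; decide +kernel)
  · push Not at hall
    obtain ⟨n0, hn0, hn0P⟩ := hall
    have hm1 : 2 ≤ m := by
      by_contra h
      have hc : Nat.card N ≤ Nat.card (P : Subgroup G) := by rw [hcardN, hcard]; omega
      exact hn0P ((Subgroup.eq_of_le_of_card_ge hPN hc).symm ▸ hn0)
    have hK : ∀ n, f n ∈ El.pm := by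
      rintro ⟨n, hn⟩
      refine mem_pm_of_lin _ ?_
      by_cases h : n ∈ (P : Subgroup G)
      · left
        exact ⟨B.pt_injective (by rw [hlin, B.pt_a]; exact (hact n hn _ B.ha).1 h),
          B.pt_injective (by rw [hlin, B.pt_b]; exact (hact n hn _ B.hb).1 h)⟩
      · right
        exact ⟨B.pt_injective (by rw [hlin, B.pt_a, B.pt_a']; exact (hact n hn _ B.ha).2 h),
          B.pt_injective (by rw [hlin, B.pt_b, B.pt_b']; exact (hact n hn _ B.hb).2 h)⟩
    obtain ⟨S, hS⟩ := exists_setting P B hcentN f hf htr El.pm hK (by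
      rw [Nat.card_eq_fintype_card, hcardN]
      have h18 : Fintype.card El.pm = 18 := by decide +kernel
      omega)
    exact hS.symm.trans (PlusMinus.range_eq_top S)

end CfsgLib.TIThree
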